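import Mathlib
import Cfsg.Agent.Lib.Helper17.PrimeSylow

set_option autoImplicit false

/-!
# Sylow-number machine for simple groups, part 1

Sylow `p`-subgroups of prime order in a simple group: the fixed-point rule (a prime `q ≠ p`
dividing `|C(P)|` satisfies `q ≤ r` where `n_p = 1 + p r`), and a decidable list of the possible
triples `(n_p, [N(P):C(P)], |C(P)|/p)`.
-/

namespace Cfsg.Agent.Lib.Helper5.Syl

open Cfsg.Agent.Lib.Helper17

variable {G : Type*} [Group G] [Finite G]

/-- In a simple group of non-prime order, an element fixing every Sylow `p`-subgroup (of order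
`p`) under conjugation is trivial. -/
theorem eq_one_of_forall_smul_sylow [IsSimpleGroup G] (hnp : ¬ (Nat.card G).Prime) (p : ℕ)
    [Fact p.Prime] (P : Sylow p G) (hP : Nat.card (P : Subgroup G) = p) (y : G)
    (hy : ∀ Q : Sylow p G, y • Q = Q) : y = 1 := by
  have hpp : p.Prime := Fact.out
  set φ := MulAction.toPermHom G (Sylow p G) with hφ
  have hyk : y ∈ φ.ker := by
    rw [MonoidHom.mem_ker]
    ext Q
    simp [hφ, hy Q]
  rcases (MonoidHom.normal_ker φ).eq_bot_or_eq_top with h | h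
  · rw [h] at hyk
    exact Subgroup.mem_bot.mp hyk
  · exfalso
    have hall : ∀ g : G, g • P = P := by
      intro g
      have hg : g ∈ φ.ker := h ▸ Subgroup.mem_top g
      rw [MonoidHom.mem_ker] at hg
      have := congrArg (fun σ : Equiv.Perm (Sylow p G) => σ P) hg
      simpa [hφ] using this
    have hN : Subgroup.normalizer ((P : Subgroup G) : Set G) = ⊤ := by
      rw [eq_top_iff]
      intro g _
      exact Sylow.smul_eq_iff_mem_normalizer.mp (hall g)
    have hnorm : (P : Subgroup G).Normal := Subgroup.normalizer_eq_top_iff.mp hN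
    rcases hnorm.eq_bot_or_eq_top with h1 | h1
    · rw [h1, Subgroup.card_bot] at hP
      exact hpp.one_lt.ne hP
    · rw [h1, Subgroup.card_top] at hP
      exact hnp (hP ▸ hpp)

/-- **Fixed-point rule.** In a simple group with Sylow `p`-subgroups of order `p` and
`n_p = 1 + p r`, an element of prime order `q ≠ p` centralizing a Sylow `p`-subgroup has
`q ≤ r`. -/
theorem prime_le_of_mem_centralizer [IsSimpleGroup G] (hnp : ¬ (Nat.card G).Prime) (p : ℕ)
    [Fact p.Prime] (P : Sylow p G) (hP : Nat.card (P : Subgroup G) = p) (r : ℕ)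
    (hn : Nat.card (Sylow p G) = 1 + p * r) (y : G)
    (hy : y ∈ Subgroup.centralizer ((P : Subgroup G) : Set G)) (q : ℕ) (hq : q.Prime)
    (hqp : q ≠ p) (hyq : orderOf y = q) : q ≤ r := by
  classical
  have hpp : p.Prime := Fact.out
  have : Fact q.Prime := ⟨hq⟩
  set Y := Subgroup.zpowers y with hY
  have hYq : IsPGroup q Y := by
    apply IsPGroup.of_card (n := 1)
    rw [Nat.card_zpowers, hyq, pow_one]
  set F := MulAction.fixedPoints Y (Sylow p G) with hF
  have hc : Nat.card (Sylow p G) ≡ Nat.card F [MOD q] := hYq.card_modEq_card_fixedPoints _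
  -- membership in `F`
  have hFmem : ∀ Q : Sylow p G, Q ∈ F ↔ y • Q = Q := by
    intro Q
    constructor
    · intro h
      exact h ⟨y, Subgroup.mem_zpowers y⟩
    · intro h z
      obtain ⟨k, hk⟩ := Subgroup.mem_zpowers_iff.mp z.2
      have : ∀ k : ℤ, y ^ k • Q = Q := by
        intro k
        have h1 : ∀ n : ℕ, y ^ n • Q = Q := by
          intro n
          induction n with
          | zero => simp
          | succ n ih => rw [pow_succ, mul_smul, h, ih]
        rcases Int.eq_nat_or_neg k with ⟨n, rfl | rfl⟩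
        · simpa using h1 n
        · rw [zpow_neg, zpow_natCast, inv_smul_eq_iff, h1 n]
      have hz : (z : G) • Q = Q := by rw [← hk]; exact this k
      exact hz
  have hcomm : ∀ x ∈ (P : Subgroup G), x * y = y * x := by
    intro x hx
    exact ((Subgroup.mem_centralizer_iff.mp hy) x hx)
  -- `P` acts on `F`
  let S : SubMulAction (P : Subgroup G) (Sylow p G) :=
    { carrier := F
      smul_mem' := by
        intro x Q hQ
        have h1 := (hFmem Q).mp hQ
        apply (hFmem _).mpr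
        show y • ((x : G) • Q) = (x : G) • Q
        rw [← mul_smul, ← hcomm x x.2, mul_smul, h1] }
  have hb : Nat.card S ≡ Nat.card (MulAction.fixedPoints (P : Subgroup G) S) [MOD p] :=
    P.2.card_modEq_card_fixedPoints _
  have hPF : P ∈ F := by
    apply (hFmem P).mpr
    exact Sylow.smul_eq_iff_mem_normalizer.mpr (Subgroup.centralizer_le_normalizer _ hy)
  have hfix1 : Nat.card (MulAction.fixedPoints (P : Subgroup G) S) = 1 := by
    rw [Nat.card_eq_one_iff_unique]
    constructor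
    · constructor
      rintro ⟨⟨Q₁, hQ₁F⟩, hQ₁⟩ ⟨⟨Q₂, hQ₂F⟩, hQ₂⟩
      have key : ∀ (Q : Sylow p G) (hQF : Q ∈ S),
          (⟨Q, hQF⟩ : S) ∈ MulAction.fixedPoints (P : Subgroup G) S → Q = P := by
        intro Q hQF hfix
        have h1 : Q ∈ MulAction.fixedPoints (P : Subgroup G) (Sylow p G) := by
          intro x
          have := hfix x
          exact congrArg Subtype.val this
        have hle : (P : Subgroup G) ≤ Q := (P.2.sylow_mem_fixedPoints_iff).mp h1
        exact Sylow.ext (P.3 Q.2 hle)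
      have e1 := key Q₁ hQ₁F hQ₁
      have e2 := key Q₂ hQ₂F hQ₂
      subst e1
      subst e2
      rfl
    · refine ⟨⟨⟨P, hPF⟩, ?_⟩⟩
      intro x
      apply Subtype.ext
      show (x : G) • P = P
      exact Sylow.smul_eq_iff_mem_normalizer.mpr (Subgroup.le_normalizer x.2)
  have hSF : Nat.card S = Nat.card F := rfl
  rw [hfix1, hSF] at hb
  -- `F` is proper
  have hFne : F ≠ Set.univ := by
    intro h
    have hall : ∀ Q : Sylow p G, y • Q = Q := fun Q => (hFmem Q).mp (h ▸ Set.mem_univ Q)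
    have := eq_one_of_forall_smul_sylow hnp p P hP y hall
    rw [this, orderOf_one] at hyq
    exact hq.one_lt.ne hyq
  have hlt : Nat.card F < Nat.card (Sylow p G) := by
    rw [Nat.card_coe_set_eq]
    exact Set.ncard_lt_card hFne
  -- arithmetic
  have hf1 : 1 ≤ Nat.card F := by
    rw [Nat.one_le_iff_ne_zero, Nat.card_ne_zero]
    exact ⟨⟨⟨P, hPF⟩⟩, inferInstance⟩
  obtain ⟨k, hk⟩ : p ∣ Nat.card F - 1 := (Nat.modEq_iff_dvd' hf1).mp hb.symm
  have hfk : Nat.card F = 1 + p * k := by omega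
  rw [hn, hfk] at hc hlt
  have hkr : k < r := by
    have : p * k < p * r := by omega
    exact lt_of_mul_lt_mul_left this (Nat.zero_le p)
  have hd : q ∣ (1 + p * r) - (1 + p * k) := (Nat.modEq_iff_dvd' (by omega)).mp hc.symm
  have he : (1 + p * r) - (1 + p * k) = p * (r - k) := by
    rw [Nat.mul_sub]; omega
  rw [he] at hd
  rcases (Nat.Prime.dvd_mul hq).mp hd with h | h
  · exact absurd ((Nat.prime_dvd_prime_iff_eq hq hpp).mp h) hqp
  · have := Nat.le_of_dvd (by omega) h
    omega

/-- The fixed-point rule for prime divisors of `|C(P)|`. -/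
theorem prime_le_of_dvd_card_centralizer [IsSimpleGroup G] (hnp : ¬ (Nat.card G).Prime) (p : ℕ)
    [Fact p.Prime] (P : Sylow p G) (hP : Nat.card (P : Subgroup G) = p) (r : ℕ)
    (hn : Nat.card (Sylow p G) = 1 + p * r) (q : ℕ) (hq : q.Prime) (hqp : q ≠ p)
    (hqc : q ∣ Nat.card (Subgroup.centralizer ((P : Subgroup G) : Set G))) : q ≤ r := by
  have : Fact q.Prime := ⟨hq⟩
  obtain ⟨y, hy⟩ := exists_prime_orderOf_dvd_card'
    (G := ↥(Subgroup.centralizer ((P : Subgroup G) : Set G))) q hqc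
  exact prime_le_of_mem_centralizer hnp p P hP r hn (y : G) y.2 q hq hqp
    (by rw [Subgroup.orderOf_coe, hy])

/-- The basic numerical data of a Sylow `p`-subgroup of order `p` in a simple group. -/
theorem syl_data [IsSimpleGroup G] (hnp : ¬ (Nat.card G).Prime) (p m : ℕ) [Fact p.Prime]
    (h : Nat.card G = p * m) (hpm : ¬ p ∣ m) (ℓ : ℕ) (hℓ : ℓ.Prime) (hℓG : ℓ ∣ p * m)
    (h2 : ∃ q, q.Prime ∧ q ≠ p ∧ q ∣ p * m) :
    ∃ P : Sylow p G, Nat.card (P : Subgroup G) = p ∧ ∃ e c' : ℕ,
      Nat.card (Sylow p G) ∈ sylowCands p m ∧ Nat.card (Sylow p G) ≠ 1 ∧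
      ℓ ≤ Nat.card (Sylow p G) ∧ e ≠ 1 ∧ e ∣ p - 1 ∧ Nat.card (Sylow p G) * (e * c') = m ∧
      Nat.card (Subgroup.normalizer ((P : Subgroup G) : Set G)) = p * (e * c') ∧
      Nat.card (Subgroup.centralizer ((P : Subgroup G) : Set G)) = p * c' ∧
      ∀ q, q.Prime → q ≠ p → q ∣ c' → q ≤ (Nat.card (Sylow p G) - 1) / p := by
  have hpp : p.Prime := Fact.out
  obtain ⟨P⟩ := (Sylow.nonempty : Nonempty (Sylow p G))
  have h' : Nat.card G = p ^ 1 * m := by rw [pow_one]; exact h
  have hm0 : m ≠ 0 := fun h0 => hpm (h0 ▸ dvd_zero p)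
  have hP : Nat.card (P : Subgroup G) = p := by
    simpa using card_sylow_eq_of_card_eq p 1 m h' hpm P
  obtain ⟨q0, hq0, hq0p, hq0G⟩ := h2
  have hne1 : Nat.card (Sylow p G) ≠ 1 :=
    card_sylow_ne_one p (by rw [h]; exact dvd_mul_right p m) q0 hq0 hq0p (by rw [h]; exact hq0G)
  have hfac := two_mul_card_dvd_factorial_card_sylow hnp p hne1
  have hℓle : ℓ ≤ Nat.card (Sylow p G) := by
    apply (Nat.Prime.dvd_factorial hℓ).mp
    exact dvd_trans (dvd_trans (by rw [h]; exact hℓG) (dvd_mul_left _ 2)) hfac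
  obtain ⟨hr1, hr2, hr3, hPC⟩ := relIndex_centralizer_sylow_prime hnp p P hP
  obtain ⟨c', hc'⟩ : p ∣ Nat.card (Subgroup.centralizer ((P : Subgroup G) : Set G)) := by
    have := Subgroup.card_dvd_of_le hPC
    rwa [hP] at this
  set e := (Subgroup.centralizer ((P : Subgroup G) : Set G)).relIndex
    (Subgroup.normalizer ((P : Subgroup G) : Set G)) with he
  have hN : Nat.card (Subgroup.normalizer ((P : Subgroup G) : Set G)) = p * (e * c') := by
    rw [← hr3, hc']; ring
  have hmul := card_sylow_mul_card_normalizer p P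
  rw [hN, h] at hmul
  have hm : Nat.card (Sylow p G) * (e * c') = m := by
    apply Nat.eq_of_mul_eq_mul_left hpp.pos
    rw [← hmul]; ring
  have hmod : p ∣ Nat.card (Sylow p G) - 1 := by
    have h1 : 1 ≤ Nat.card (Sylow p G) := Nat.card_pos
    exact (Nat.modEq_iff_dvd' h1).mp (card_sylow_modEq_one p G).symm
  have hn : Nat.card (Sylow p G) = 1 + p * ((Nat.card (Sylow p G) - 1) / p) := by
    rw [Nat.mul_div_cancel' hmod]
    have h1 : 1 ≤ Nat.card (Sylow p G) := Nat.card_pos
    omega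
  refine ⟨P, hP, e, c', card_sylow_mem_cands p 1 m h' hm0, hne1, hℓle, hr1, hr2, hm, hN, hc', ?_⟩
  intro q hq hqp hqc
  exact prime_le_of_dvd_card_centralizer hnp p P hP _ hn q hq hqp
    (by rw [hc']; exact dvd_mul_of_dvd_right hqc p)

/-- The list of possible triples `(n_p, [N:C], |C|/p)` for a Sylow `p`-subgroup of order `p` in a
simple group of order `p * m`; `ℓ` is a prime divisor of the order, `qs` a list of primes. -/
def tripleList (p m ℓ : ℕ) (qs : List ℕ) : List (ℕ × ℕ × ℕ) :=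
  (sylowCands p m).flatMap fun v =>
    if v = 1 ∨ v < ℓ then [] else
      ((List.range p).filter fun e => decide (e ∣ p - 1 ∧ e ≠ 1 ∧ e ∣ m / v ∧
          ∀ q ∈ qs, q ≠ p → q ∣ m / v / e → q ≤ (v - 1) / p)).map fun e => (v, e, m / v / e)

/-- The Sylow data of a simple group lies in `tripleList`. -/
theorem triple_mem [IsSimpleGroup G] (hnp : ¬ (Nat.card G).Prime) (p m : ℕ) [Fact p.Prime]
    (h : Nat.card G = p * m) (hpm : ¬ p ∣ m) (ℓ : ℕ) (hℓ : ℓ.Prime) (hℓG : ℓ ∣ p * m)
    (h2 : ∃ q, q.Prime ∧ q ≠ p ∧ q ∣ p * m) (qs : List ℕ) (hqs : ∀ q ∈ qs, q.Prime) :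
    ∃ P : Sylow p G, Nat.card (P : Subgroup G) = p ∧ ∃ t ∈ tripleList p m ℓ qs,
      Nat.card (Sylow p G) = t.1 ∧
      Nat.card (Subgroup.normalizer ((P : Subgroup G) : Set G)) = p * (t.2.1 * t.2.2) ∧
      Nat.card (Subgroup.centralizer ((P : Subgroup G) : Set G)) = p * t.2.2 := by
  have hpp : p.Prime := Fact.out
  obtain ⟨P, hP, e, c', hcand, hne1, hℓle, he1, hed, hm, hN, hC, hF⟩ :=
    syl_data hnp p m h hpm ℓ hℓ hℓG h2
  refine ⟨P, hP, (Nat.card (Sylow p G), e, c'), ?_, rfl, hN, hC⟩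
  set v := Nat.card (Sylow p G) with hv
  have hp1 : 0 < p - 1 := by have := hpp.two_le; omega
  have he0 : 0 < e := Nat.pos_of_ne_zero (fun h0 => by rw [h0] at hed; simp at hed; omega)
  have hv0 : 0 < v := Nat.card_pos
  have hmv : m / v = e * c' := by rw [← hm]; exact Nat.mul_div_cancel_left _ hv0
  have hmve : m / v / e = c' := by rw [hmv]; exact Nat.mul_div_cancel_left _ he0
  simp only [tripleList, List.mem_flatMap]
  refine ⟨v, hcand, ?_⟩
  rw [if_neg (by rintro (h1 | h1); exacts [hne1 h1, absurd hℓle (Nat.not_le.mpr h1)])]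
  simp only [List.mem_map, List.mem_filter, List.mem_range, decide_eq_true_eq]
  refine ⟨e, ⟨?_, hed, he1, ?_, ?_⟩, ?_⟩
  · have := Nat.le_of_dvd hp1 hed
    omega
  · rw [hmv]; exact dvd_mul_right e c'
  · intro q hq hqp hqd
    rw [hmve] at hqd
    exact hF q (hqs q hq) hqp hqd
  · rw [hmve]

end Cfsg.Agent.Lib.Helper5.Syl
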