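import Mathlib

set_option autoImplicit false

/-! Order types via the counting function `n ↦ #{g | g ^ n = 1}`. -/

namespace Cfsg.Agent.Lib.Helper5.OrdType

/-- Number of solutions of `g ^ n = 1`. -/
noncomputable def fcount (G : Type*) [Group G] (n : ℕ) : ℕ := Nat.card {g : G // g ^ n = 1}

theorem fcount_prod (A B : Type*) [Group A] [Group B] (n : ℕ) :
    fcount (A × B) n = fcount A n * fcount B n := by
  unfold fcount
  rw [← Nat.card_prod]
  apply Nat.card_congr
  exact {
    toFun := fun x => (⟨x.1.1, by have := congrArg Prod.fst x.2; simpa using this⟩,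
      ⟨x.1.2, by have := congrArg Prod.snd x.2; simpa using this⟩)
    invFun := fun y => ⟨(y.1.1, y.2.1), Prod.ext (by simpa using y.1.2) (by simpa using y.2.2)⟩
    left_inv := fun x => rfl
    right_inv := fun y => rfl }

theorem fcount_pi (ι : Type*) [Fintype ι] (A : Type*) [Group A] (n : ℕ) :
    fcount (ι → A) n = fcount A n ^ Fintype.card ι := by
  unfold fcount
  rw [← Nat.card_eq_fintype_card (α := ι), ← Nat.card_fun]
  apply Nat.card_congr
  exact {
    toFun := fun x i => ⟨x.1 i, by have := congrFun x.2 i; simpa using this⟩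
    invFun := fun y => ⟨fun i => (y i).1, funext fun i => by simpa using (y i).2⟩
    left_inv := fun x => rfl
    right_inv := fun y => rfl }

theorem fcount_gcd {G : Type*} [Group G] (E : ℕ) (hE : ∀ x : G, x ^ E = 1) (n : ℕ) :
    fcount G n = fcount G (Nat.gcd n E) := by
  unfold fcount
  apply Nat.card_congr
  apply Equiv.subtypeEquivRight
  intro x
  rw [pow_gcd_eq_one]
  exact ⟨fun h => ⟨h, hE x⟩, fun h => h.1⟩

theorem fcount_eq_sum {G : Type*} [Group G] [Finite G] {n : ℕ} (hn : n ≠ 0) :
    fcount G n = ∑ d ∈ n.divisors, Nat.card {g : G // orderOf g = d} := by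
  classical
  have := Fintype.ofFinite G
  unfold fcount
  rw [Nat.card_eq_fintype_card, Fintype.card_subtype]
  rw [Finset.card_eq_sum_card_fiberwise (f := orderOf) (t := n.divisors)]
  · apply Finset.sum_congr rfl
    intro d hd
    rw [Nat.card_eq_fintype_card, Fintype.card_subtype]
    congr 1
    ext g
    simp only [Finset.mem_filter, Finset.mem_univ, true_and]
    constructor
    · exact fun h => h.2
    · intro h
      refine ⟨?_, h⟩
      have h1 := Nat.dvd_of_mem_divisors hd
      rw [← h] at h1
      exact orderOf_dvd_iff_pow_eq_one.mp h1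
  · intro g hg
    rw [Finset.mem_coe, Finset.mem_filter] at hg
    rw [Finset.mem_coe]
    exact Nat.mem_divisors.mpr ⟨orderOf_dvd_of_pow_eq_one hg.2, hn⟩

theorem card_orderOf_eq_of_fcount {G H : Type*} [Group G] [Group H] [Finite G] [Finite H]
    (h : ∀ n, fcount G n = fcount H n) (n : ℕ) :
    Nat.card {g : G // orderOf g = n} = Nat.card {h : H // orderOf h = n} := by
  induction n using Nat.strong_induction_on with
  | _ n ih =>
    rcases Nat.eq_zero_or_pos n with rfl | hn
    · have h1 : IsEmpty {g : G // orderOf g = 0} := ⟨fun x => (orderOf_pos x.1).ne' x.2⟩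
      have h2 : IsEmpty {g : H // orderOf g = 0} := ⟨fun x => (orderOf_pos x.1).ne' x.2⟩
      rw [Nat.card_of_isEmpty, Nat.card_of_isEmpty]
    · have e1 := fcount_eq_sum (G := G) hn.ne'
      have e2 := fcount_eq_sum (G := H) hn.ne'
      rw [← Nat.cons_self_properDivisors hn.ne', Finset.sum_cons] at e1 e2
      have e3 : ∑ d ∈ n.properDivisors, Nat.card {g : G // orderOf g = d}
          = ∑ d ∈ n.properDivisors, Nat.card {g : H // orderOf g = d} :=
        Finset.sum_congr rfl (fun d hd => ih d (Nat.mem_properDivisors.mp hd).2)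
      have e4 := h n
      omega

instance isSolvable_pi (ι : Type*) (A : Type*) [Group A] [hA : Group.IsSolvable A] :
    Group.IsSolvable (ι → A) := by
  obtain ⟨n, hn⟩ := hA.solvable
  refine ⟨⟨n, ?_⟩⟩
  rw [eq_bot_iff]
  intro x hx
  rw [Subgroup.mem_bot]
  funext i
  have h1 := map_derivedSeries_le_derivedSeries (Pi.evalMonoidHom (fun _ : ι => A) i) n
  have h2 : (Pi.evalMonoidHom (fun _ : ι => A) i) x ∈ derivedSeries A n :=
    h1 (Subgroup.mem_map_of_mem _ hx)
  rw [hn] at h2
  exact Subgroup.mem_bot.mp h2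

/-- groups of exponent dividing `84` -/
class Exp84 (A : Type*) [Group A] : Prop where
  pow84 : ∀ x : A, x ^ 84 = 1

instance exp84_pi (ι : Type*) (A : Type*) [Group A] [Exp84 A] : Exp84 (ι → A) :=
  ⟨fun x => funext fun i => by simpa using Exp84.pow84 (x i)⟩

instance exp84_prod (A B : Type*) [Group A] [Group B] [Exp84 A] [Exp84 B] : Exp84 (A × B) :=
  ⟨fun x => Prod.ext (by simpa using Exp84.pow84 x.1) (by simpa using Exp84.pow84 x.2)⟩

/-- the computable count of solutions of `g ^ n = 1` -/
def tabOf (A : Type) [Group A] [Fintype A] [DecidableEq A] (n : ℕ) : ℕ :=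
  (Finset.univ.filter (fun g : A => g ^ n = 1)).card

theorem fcount_eq_tabOf (A : Type) [Group A] [Fintype A] [DecidableEq A] (n : ℕ) :
    fcount A n = tabOf A n := by
  unfold fcount tabOf
  rw [Nat.card_eq_fintype_card, Fintype.card_subtype]

end Cfsg.Agent.Lib.Helper5.OrdType
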