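import Mathlib
import Cfsg.Agent.Lib.Helper5.OrdType
import Cfsg.Agent.Lib.Helper5.TwTensor

set_option autoImplicit false

/-! Split extensions `(ZMod 7 × ZMod 7) ⋊ Q` with `Q` acting through two characters, and the
number of solutions of `x ^ n = 1` in them. -/

namespace Cfsg.Agent.Lib.Helper5.OrdBlk

open Cfsg.Agent.Lib.Helper5.OrdType

/-- the plane over the field with seven elements -/
abbrev V7 : Type := ZMod 7 × ZMod 7

/-- scaling the two coordinates by units -/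
def scAdd (u₁ u₂ : (ZMod 7)ˣ) : V7 ≃+ V7 where
  toFun v := ((u₁ : ZMod 7) * v.1, (u₂ : ZMod 7) * v.2)
  invFun v := (((u₁⁻¹ : (ZMod 7)ˣ) : ZMod 7) * v.1, ((u₂⁻¹ : (ZMod 7)ˣ) : ZMod 7) * v.2)
  left_inv v := by
    apply Prod.ext
    · show ((u₁⁻¹ : (ZMod 7)ˣ) : ZMod 7) * ((u₁ : ZMod 7) * v.1) = v.1
      rw [← mul_assoc, ← Units.val_mul, inv_mul_cancel, Units.val_one, one_mul]
    · show ((u₂⁻¹ : (ZMod 7)ˣ) : ZMod 7) * ((u₂ : ZMod 7) * v.2) = v.2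
      rw [← mul_assoc, ← Units.val_mul, inv_mul_cancel, Units.val_one, one_mul]
  right_inv v := by
    apply Prod.ext
    · show (u₁ : ZMod 7) * (((u₁⁻¹ : (ZMod 7)ˣ) : ZMod 7) * v.1) = v.1
      rw [← mul_assoc, ← Units.val_mul, mul_inv_cancel, Units.val_one, one_mul]
    · show (u₂ : ZMod 7) * (((u₂⁻¹ : (ZMod 7)ˣ) : ZMod 7) * v.2) = v.2
      rw [← mul_assoc, ← Units.val_mul, mul_inv_cancel, Units.val_one, one_mul]
  map_add' v w := by
    apply Prod.ext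
    · show (u₁ : ZMod 7) * (v.1 + w.1) = (u₁ : ZMod 7) * v.1 + (u₁ : ZMod 7) * w.1
      rw [mul_add]
    · show (u₂ : ZMod 7) * (v.2 + w.2) = (u₂ : ZMod 7) * v.2 + (u₂ : ZMod 7) * w.2
      rw [mul_add]

variable {Q : Type} [Group Q]

/-- the action through two characters -/
def act (χ₁ χ₂ : Q →* (ZMod 7)ˣ) : Q →* MulAut (Multiplicative V7) where
  toFun c := AddEquiv.toMultiplicative (scAdd (χ₁ c) (χ₂ c))
  map_one' := by
    apply MulEquiv.ext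
    intro x
    show Multiplicative.ofAdd ((((χ₁ 1 : (ZMod 7)ˣ) : ZMod 7) * (Multiplicative.toAdd x).1,
      ((χ₂ 1 : (ZMod 7)ˣ) : ZMod 7) * (Multiplicative.toAdd x).2) : V7) = x
    rw [map_one, map_one, Units.val_one, one_mul, one_mul]
    rfl
  map_mul' g h := by
    apply MulEquiv.ext
    intro x
    show Multiplicative.ofAdd ((((χ₁ (g * h) : (ZMod 7)ˣ) : ZMod 7) * (Multiplicative.toAdd x).1,
      ((χ₂ (g * h) : (ZMod 7)ˣ) : ZMod 7) * (Multiplicative.toAdd x).2) : V7) =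
      Multiplicative.ofAdd ((((χ₁ g : (ZMod 7)ˣ) : ZMod 7) *
        (((χ₁ h : (ZMod 7)ˣ) : ZMod 7) * (Multiplicative.toAdd x).1),
        ((χ₂ g : (ZMod 7)ˣ) : ZMod 7) *
        (((χ₂ h : (ZMod 7)ˣ) : ZMod 7) * (Multiplicative.toAdd x).2)) : V7)
    rw [map_mul, map_mul, Units.val_mul, Units.val_mul, mul_assoc, mul_assoc]

theorem act_apply (χ₁ χ₂ : Q →* (ZMod 7)ˣ) (c : Q) (x : Multiplicative V7) :
    act χ₁ χ₂ c x = Multiplicative.ofAdd ((((χ₁ c : (ZMod 7)ˣ) : ZMod 7) *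
      (Multiplicative.toAdd x).1, ((χ₂ c : (ZMod 7)ˣ) : ZMod 7) * (Multiplicative.toAdd x).2) : V7) :=
  rfl

/-- the block `(ZMod 7 × ZMod 7) ⋊ Q` -/
abbrev Blk (χ₁ χ₂ : Q →* (ZMod 7)ˣ) : Type := Multiplicative V7 ⋊[act χ₁ χ₂] Q

/-- geometric sums `1 + u + ... + u ^ (n - 1)` -/
def geo : ℕ → ZMod 7 → ZMod 7
  | 0, _ => 0
  | n + 1, u => 1 + u * geo n u

/-- the number of solutions of `a * v = 0` -/
def wt (a : ZMod 7) : ℕ := if a = 0 then 7 else 1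

theorem blk_pow (χ₁ χ₂ : Q →* (ZMod 7)ˣ) (c : Q) (v : V7) (n : ℕ) :
    ((⟨Multiplicative.ofAdd v, c⟩ : Blk χ₁ χ₂) ^ n) =
      ⟨Multiplicative.ofAdd ((geo n (χ₁ c : (ZMod 7)ˣ) * v.1, geo n (χ₂ c : (ZMod 7)ˣ) * v.2) : V7),
        c ^ n⟩ := by
  induction n with
  | zero =>
    rw [pow_zero, pow_zero]
    apply SemidirectProduct.ext
    · show (1 : Multiplicative V7) = Multiplicative.ofAdd ((geo 0 _ * v.1, geo 0 _ * v.2) : V7)
      simp only [geo, zero_mul]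
      rfl
    · rfl
  | succ n ih =>
    rw [pow_succ', ih]
    apply SemidirectProduct.ext
    · rw [SemidirectProduct.mul_left]
      show Multiplicative.ofAdd v * act χ₁ χ₂ c (Multiplicative.ofAdd _) = _
      rw [act_apply, ← ofAdd_add]
      congr 1
      apply Prod.ext
      · show v.1 + ((χ₁ c : (ZMod 7)ˣ) : ZMod 7) * (geo n (χ₁ c : (ZMod 7)ˣ) * v.1) =
          geo (n + 1) (χ₁ c : (ZMod 7)ˣ) * v.1
        simp only [geo]; ring
      · show v.2 + ((χ₂ c : (ZMod 7)ˣ) : ZMod 7) * (geo n (χ₂ c : (ZMod 7)ˣ) * v.2) =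
          geo (n + 1) (χ₂ c : (ZMod 7)ˣ) * v.2
        simp only [geo]; ring
    · rw [SemidirectProduct.mul_right, pow_succ']

theorem blk_pow_eq_one_iff (χ₁ χ₂ : Q →* (ZMod 7)ˣ) (c : Q) (v : V7) (n : ℕ) :
    ((⟨Multiplicative.ofAdd v, c⟩ : Blk χ₁ χ₂) ^ n = 1) ↔
      (c ^ n = 1 ∧ geo n (χ₁ c : (ZMod 7)ˣ) * v.1 = 0 ∧ geo n (χ₂ c : (ZMod 7)ˣ) * v.2 = 0) := by
  rw [blk_pow]
  constructor
  · intro h
    have h1 := congrArg SemidirectProduct.left h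
    have h2 := congrArg SemidirectProduct.right h
    have h1' := ofAdd_eq_one.mp h1
    exact ⟨h2, congrArg Prod.fst h1', congrArg Prod.snd h1'⟩
  · rintro ⟨h1, h2, h3⟩
    apply SemidirectProduct.ext
    · show Multiplicative.ofAdd (_ : V7) = 1
      rw [h2, h3]; rfl
    · exact h1

/-- the underlying set of a block -/
def blkEquiv (χ₁ χ₂ : Q →* (ZMod 7)ˣ) : Q × V7 ≃ Blk χ₁ χ₂ where
  toFun p := ⟨Multiplicative.ofAdd p.2, p.1⟩
  invFun x := (x.right, Multiplicative.toAdd x.left)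
  left_inv _ := rfl
  right_inv _ := rfl

theorem fibre_count : ∀ a₁ a₂ : ZMod 7,
    (∑ v : ZMod 7 × ZMod 7, if a₁ * v.1 = 0 ∧ a₂ * v.2 = 0 then 1 else 0) = wt a₁ * wt a₂ := by
  decide

/-- the computable count of solutions of `x ^ n = 1` in a block -/
def blkTab (Q : Type) [Group Q] [Fintype Q] [DecidableEq Q] (χ₁ χ₂ : Q →* (ZMod 7)ˣ) (n : ℕ) : ℕ :=
  ∑ c : Q, if c ^ n = 1 then wt (geo n (χ₁ c : (ZMod 7)ˣ)) * wt (geo n (χ₂ c : (ZMod 7)ˣ)) else 0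

theorem blk_count [Fintype Q] [DecidableEq Q] (χ₁ χ₂ : Q →* (ZMod 7)ˣ) (n : ℕ) :
    fcount (Blk χ₁ χ₂) n = blkTab Q χ₁ χ₂ n := by
  classical
  have : Fintype (Blk χ₁ χ₂) := Fintype.ofEquiv _ (blkEquiv χ₁ χ₂)
  unfold fcount blkTab
  rw [Nat.card_eq_fintype_card, Fintype.card_subtype, Finset.card_filter]
  rw [← Equiv.sum_comp (blkEquiv χ₁ χ₂), Fintype.sum_prod_type]
  apply Finset.sum_congr rfl
  intro c _
  by_cases hc : c ^ n = 1
  · rw [if_pos hc, ← fibre_count]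
    apply Finset.sum_congr rfl
    intro v _
    apply if_congr _ rfl rfl
    show ((⟨Multiplicative.ofAdd v, c⟩ : Blk χ₁ χ₂) ^ n = 1) ↔ _
    rw [blk_pow_eq_one_iff]
    exact ⟨fun h => h.2, fun h => ⟨hc, h⟩⟩
  · rw [if_neg hc]
    apply Finset.sum_eq_zero
    intro v _
    rw [if_neg]
    show ¬ ((⟨Multiplicative.ofAdd v, c⟩ : Blk χ₁ χ₂) ^ n = 1)
    rw [blk_pow_eq_one_iff]
    exact fun h => hc h.1

instance blk_finite [Finite Q] (χ₁ χ₂ : Q →* (ZMod 7)ˣ) : Finite (Blk χ₁ χ₂) :=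
  Finite.of_equiv _ (blkEquiv χ₁ χ₂)

theorem v7_pow : ∀ b : Multiplicative V7, b ^ 7 = 1 := by decide

theorem blk_pow84 (χ₁ χ₂ : Q →* (ZMod 7)ˣ) (hQ : ∀ c : Q, c ^ 12 = 1) (x : Blk χ₁ χ₂) :
    x ^ 84 = 1 :=
  TwTensor.sdp_pow_mul_eq_one (act χ₁ χ₂) x 12 7 (hQ x.right) v7_pow

instance blk_solvable (χ₁ χ₂ : Q →* (ZMod 7)ˣ) [Group.IsSolvable Q] :
    Group.IsSolvable (Blk χ₁ χ₂) :=
  Group.isSolvable_of_ker_le_range (SemidirectProduct.inl : Multiplicative V7 →* Blk χ₁ χ₂)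
    SemidirectProduct.rightHom SemidirectProduct.range_inl_eq_ker_rightHom.ge

end Cfsg.Agent.Lib.Helper5.OrdBlk
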