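import Mathlib
import Cfsg.Agent.Lib.Helper5.OrdBlk
import Cfsg.Agent.Lib.Helper5.PSL2
import Cfsg.Agent.Lib.Helper41.SL2
import Cfsg.Agent.Lib.Helper3.BurnsidePQ

set_option autoImplicit false

/-! The concrete groups used for a solvable and a non-solvable group with the same order type:
small groups, blocks `(ZMod 7 × ZMod 7) ⋊ Q`, the affine semilinear group of the line over the
field with eight elements and `PSL₂(7)`, each with a computable count of the solutions of
`x ^ n = 1`. -/

namespace Cfsg.Agent.Lib.Helper5.OrdGrp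

open Cfsg.Agent.Lib.Helper5.OrdType Cfsg.Agent.Lib.Helper5.OrdBlk

/-! ### small groups -/

abbrev C2 : Type := Multiplicative (ZMod 2)
abbrev C3 : Type := Multiplicative (ZMod 3)
abbrev C4 : Type := Multiplicative (ZMod 4)
abbrev C7 : Type := Multiplicative (ZMod 7)
abbrev D3 : Type := DihedralGroup 3
abbrev D4 : Type := DihedralGroup 4
abbrev Q3 : Type := QuaternionGroup 3
abbrev S4 : Type := Equiv.Perm (Fin 4)
abbrev A4 : Type := alternatingGroup (Fin 4)

theorem solvable_of_card (G : Type) [Group G] [Finite G] (a b : ℕ)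
    (h : Nat.card G = 2 ^ a * 3 ^ b) : Group.IsSolvable G :=
  Cfsg.Agent.Lib.Helper3.burnside_paqb _ G 2 3 a b Nat.prime_two Nat.prime_three rfl h

instance solvable_D3 : Group.IsSolvable D3 :=
  solvable_of_card D3 1 1 (by rw [Nat.card_eq_fintype_card]; decide +kernel)
instance solvable_D4 : Group.IsSolvable D4 :=
  solvable_of_card D4 3 0 (by rw [Nat.card_eq_fintype_card]; decide +kernel)
instance solvable_Q3 : Group.IsSolvable Q3 :=
  solvable_of_card Q3 2 1 (by rw [Nat.card_eq_fintype_card]; decide +kernel)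
instance solvable_S4 : Group.IsSolvable S4 :=
  solvable_of_card S4 3 1 (by rw [Nat.card_eq_fintype_card]; decide +kernel)
instance solvable_A4 : Group.IsSolvable A4 :=
  solvable_of_card A4 2 1 (by rw [Nat.card_eq_fintype_card]; decide +kernel)

set_option maxRecDepth 100000 in
instance exp84_C2 : Exp84 C2 := ⟨by decide +kernel⟩
set_option maxRecDepth 100000 in
instance exp84_C4 : Exp84 C4 := ⟨by decide +kernel⟩
set_option maxRecDepth 100000 in
instance exp84_C7 : Exp84 C7 := ⟨by decide +kernel⟩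
set_option maxRecDepth 100000 in
instance exp84_D3 : Exp84 D3 := ⟨by decide +kernel⟩
set_option maxRecDepth 100000 in
instance exp84_D4 : Exp84 D4 := ⟨by decide +kernel⟩
set_option maxRecDepth 100000 in
instance exp84_Q3 : Exp84 Q3 := ⟨by decide +kernel⟩
set_option maxRecDepth 100000 in
instance exp84_S4 : Exp84 S4 := ⟨by decide +kernel⟩
set_option maxRecDepth 100000 in
instance exp84_A4 : Exp84 A4 := ⟨by decide +kernel⟩

/-! ### characters -/

/-- the unit `-1` -/
def u6 : (ZMod 7)ˣ := -1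
/-- the unit `2`, of order three -/
def u2 : (ZMod 7)ˣ := ⟨2, 4, by decide, by decide⟩

/-- character of a cyclic group -/
def cyc (m : ℕ) [NeZero m] (u : (ZMod 7)ˣ) (hu : u ^ m = 1) :
    Multiplicative (ZMod m) →* (ZMod 7)ˣ where
  toFun x := u ^ (Multiplicative.toAdd x).val
  map_one' := by
    show u ^ (0 : ZMod m).val = 1
    rw [ZMod.val_zero, pow_zero]
  map_mul' x y := by
    show u ^ (Multiplicative.toAdd x + Multiplicative.toAdd y).val =
      u ^ (Multiplicative.toAdd x).val * u ^ (Multiplicative.toAdd y).val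
    rw [ZMod.val_add, ← pow_add, ← pow_eq_pow_mod _ hu]

def chC2 : C2 →* (ZMod 7)ˣ := cyc 2 u6 (by decide)
def chC4 : C4 →* (ZMod 7)ˣ := cyc 4 u6 (by decide)
def chC3 : C3 →* (ZMod 7)ˣ := cyc 3 u2 (by decide)

def dsgnFun (n : ℕ) : DihedralGroup n → (ZMod 7)ˣ
  | DihedralGroup.r _ => 1
  | DihedralGroup.sr _ => -1

/-- the character of a dihedral group with kernel the rotations -/
def dsgn (n : ℕ) : DihedralGroup n →* (ZMod 7)ˣ where
  toFun := dsgnFun n
  map_one' := rfl
  map_mul' x y := by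
    cases x <;> cases y <;> simp [dsgnFun]

def drotFun : D4 → (ZMod 7)ˣ
  | DihedralGroup.r i => u6 ^ i.val
  | DihedralGroup.sr i => u6 ^ i.val

/-- a character of the dihedral group of order eight with kernel a four-group -/
def drot : D4 →* (ZMod 7)ˣ where
  toFun := drotFun
  map_one' := by decide
  map_mul' := by decide

def qsgnFun : Q3 → (ZMod 7)ˣ
  | QuaternionGroup.a _ => 1
  | QuaternionGroup.xa _ => -1

/-- the nontrivial character of the dicyclic group of order twelve -/
def qsgn : Q3 →* (ZMod 7)ˣ where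
  toFun := qsgnFun
  map_one' := by decide
  map_mul' := by decide

/-! ### the blocks -/

abbrev B1 : Type := Blk chC4 (1 : C4 →* (ZMod 7)ˣ)
abbrev B2 : Type := Blk (MonoidHom.coprod chC2 chC3) (1 : C2 × C3 →* (ZMod 7)ˣ)
abbrev B3 : Type := Blk chC3 (1 : C3 →* (ZMod 7)ˣ)
abbrev B4 : Type := Blk chC2 chC2
abbrev B5 : Type := Blk (MonoidHom.coprod chC2 (1 : C3 →* (ZMod 7)ˣ)) (MonoidHom.coprod chC2 chC3)
abbrev B6 : Type := Blk (dsgn 4) (1 : D4 →* (ZMod 7)ˣ)
abbrev B7 : Type := Blk chC2 (1 : C2 →* (ZMod 7)ˣ)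
abbrev B8 : Type := Blk (MonoidHom.coprod (dsgn 3) drot) (1 : D3 × D4 →* (ZMod 7)ˣ)
abbrev B9 : Type := Blk (MonoidHom.coprod (dsgn 3) qsgn) (1 : D3 × Q3 →* (ZMod 7)ˣ)
abbrev B10 : Type := Blk (MonoidHom.coprod (dsgn 4) drot) (1 : D4 × D4 →* (ZMod 7)ˣ)
abbrev B11 : Type := Blk (MonoidHom.coprod (dsgn 3) (dsgn 3)) (1 : D3 × D3 →* (ZMod 7)ˣ)
abbrev B12 : Type := Blk (MonoidHom.coprod (1 : C3 →* (ZMod 7)ˣ) chC4) (MonoidHom.coprod chC3 chC4)
abbrev B13 : Type := Blk (MonoidHom.coprod chC3 chC4) (1 : C3 × C4 →* (ZMod 7)ˣ)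

set_option maxRecDepth 100000 in
instance exp84_B1 : Exp84 B1 := ⟨blk_pow84 _ _ (by decide +kernel)⟩
set_option maxRecDepth 100000 in
instance exp84_B2 : Exp84 B2 := ⟨blk_pow84 _ _ (by decide +kernel)⟩
set_option maxRecDepth 100000 in
instance exp84_B3 : Exp84 B3 := ⟨blk_pow84 _ _ (by decide +kernel)⟩
set_option maxRecDepth 100000 in
instance exp84_B4 : Exp84 B4 := ⟨blk_pow84 _ _ (by decide +kernel)⟩
set_option maxRecDepth 100000 in
instance exp84_B5 : Exp84 B5 := ⟨blk_pow84 _ _ (by decide +kernel)⟩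
set_option maxRecDepth 100000 in
instance exp84_B6 : Exp84 B6 := ⟨blk_pow84 _ _ (by decide +kernel)⟩
set_option maxRecDepth 100000 in
instance exp84_B7 : Exp84 B7 := ⟨blk_pow84 _ _ (by decide +kernel)⟩
set_option maxRecDepth 100000 in
instance exp84_B8 : Exp84 B8 := ⟨blk_pow84 _ _ (by decide +kernel)⟩
set_option maxRecDepth 100000 in
instance exp84_B9 : Exp84 B9 := ⟨blk_pow84 _ _ (by decide +kernel)⟩
set_option maxRecDepth 100000 in
instance exp84_B10 : Exp84 B10 := ⟨blk_pow84 _ _ (by decide +kernel)⟩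
set_option maxRecDepth 100000 in
instance exp84_B11 : Exp84 B11 := ⟨blk_pow84 _ _ (by decide +kernel)⟩
set_option maxRecDepth 100000 in
instance exp84_B12 : Exp84 B12 := ⟨blk_pow84 _ _ (by decide +kernel)⟩
set_option maxRecDepth 100000 in
instance exp84_B13 : Exp84 B13 := ⟨blk_pow84 _ _ (by decide +kernel)⟩

/-! ### the affine semilinear group of the line over the field with eight elements -/

/-- the space with eight elements -/
abbrev W8 : Type := ZMod 2 × ZMod 2 × ZMod 2

/-- underlying type of the affine semilinear group -/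
def AG : Type := W8 × ZMod 7 × ZMod 3

instance decEq_AG : DecidableEq AG := inferInstanceAs (DecidableEq (W8 × ZMod 7 × ZMod 3))
instance fintype_AG : Fintype AG := inferInstanceAs (Fintype (W8 × ZMod 7 × ZMod 3))

/-- multiplication by a primitive element -/
def alpha (x : W8) : W8 := (x.2.2, x.1 + x.2.2, x.2.1)
/-- the Frobenius map -/
def beta (x : W8) : W8 := (x.1, x.2.2, x.2.1 + x.2.2)
/-- the semilinear maps -/
def lin (c : ZMod 7) (j : ZMod 3) (v : W8) : W8 := alpha^[c.val] (beta^[j.val] v)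
/-- the action of the Frobenius map on the multiplicative group -/
def twj (j : ZMod 3) : ZMod 7 := 2 ^ j.val

def agMul (x y : AG) : AG :=
  (x.1 + lin x.2.1 x.2.2 y.1, x.2.1 + twj x.2.2 * y.2.1, x.2.2 + y.2.2)
def agOne : AG := (0, 0, 0)
def agInv (x : AG) : AG :=
  (lin (-(twj (-x.2.2) * x.2.1)) (-x.2.2) x.1, -(twj (-x.2.2) * x.2.1), -x.2.2)

set_option maxRecDepth 100000 in
theorem lin_mul : ∀ (c : ZMod 7) (j : ZMod 3) (c' : ZMod 7) (j' : ZMod 3) (v : W8),
    lin (c + twj j * c') (j + j') v = lin c j (lin c' j' v) := by decide +kernel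
set_option maxRecDepth 100000 in
theorem lin_add : ∀ (c : ZMod 7) (j : ZMod 3) (v w : W8),
    lin c j (v + w) = lin c j v + lin c j w := by decide +kernel
theorem twj_add : ∀ (j j' : ZMod 3), twj (j + j') = twj j * twj j' := by decide +kernel

theorem agMul_assoc (x y z : AG) : agMul (agMul x y) z = agMul x (agMul y z) := by
  obtain ⟨v, c, j⟩ := x
  obtain ⟨v', c', j'⟩ := y
  obtain ⟨v'', c'', j''⟩ := z
  show ((v + lin c j v') + lin (c + twj j * c') (j + j') v'',
      (c + twj j * c') + twj (j + j') * c'', (j + j') + j'') =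
    (v + lin c j (v' + lin c' j' v''), c + twj j * (c' + twj j' * c''), j + (j' + j''))
  rw [lin_mul, lin_add, twj_add, add_assoc v, add_assoc j]
  refine Prod.ext rfl (Prod.ext ?_ rfl)
  show c + twj j * c' + twj j * twj j' * c'' = c + twj j * (c' + twj j' * c'')
  ring

instance mul_AG : Mul AG := ⟨agMul⟩
instance one_AG : One AG := ⟨agOne⟩
instance inv_AG : Inv AG := ⟨agInv⟩

set_option maxRecDepth 100000 in
theorem ag_one_mul : ∀ a : AG, 1 * a = a := by decide +kernel
set_option maxRecDepth 100000 in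
theorem ag_inv_mul : ∀ a : AG, a⁻¹ * a = 1 := by decide +kernel

instance group_AG : Group AG := Group.ofLeftAxioms agMul_assoc ag_one_mul ag_inv_mul

set_option maxRecDepth 100000 in
instance exp84_AG : Exp84 AG := ⟨by decide +kernel⟩

/-- the projection to the Galois group -/
def agJ : AG →* Multiplicative (ZMod 3) where
  toFun x := Multiplicative.ofAdd x.2.2
  map_one' := rfl
  map_mul' _ _ := rfl

set_option maxRecDepth 100000 in
theorem card_agJ_ker : Fintype.card {x : AG // x.2.2 = 0} = 2 ^ 3 * 7 ^ 1 := by decide +kernel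

instance solvable_AG : Group.IsSolvable AG := by
  have hK : Nat.card agJ.ker = 2 ^ 3 * 7 ^ 1 := by
    have h1 : Nat.card agJ.ker = Nat.card {x : AG // x.2.2 = 0} :=
      Nat.card_congr (Equiv.subtypeEquivRight (fun x => by
        rw [MonoidHom.mem_ker]
        exact ofAdd_eq_one))
    rw [h1, Nat.card_eq_fintype_card, card_agJ_ker]
  have : Group.IsSolvable agJ.ker :=
    Cfsg.Agent.Lib.Helper3.burnside_paqb _ _ 2 7 3 1 Nat.prime_two (by norm_num) rfl hK
  exact Group.isSolvable_of_ker_le_range agJ.ker.subtype agJ (by rw [Subgroup.range_subtype])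

/-! ### the simple group of order 168 -/

abbrev SL7 : Type := Matrix.SpecialLinearGroup (Fin 2) (ZMod 7)
abbrev PSL7 : Type := Matrix.ProjectiveSpecialLinearGroup (Fin 2) (ZMod 7)

/-- the four entries of a matrix -/
abbrev Q4 : Type := ZMod 7 × ZMod 7 × ZMod 7 × ZMod 7

def qmul (x y : Q4) : Q4 :=
  (x.1 * y.1 + x.2.1 * y.2.2.1, x.1 * y.2.1 + x.2.1 * y.2.2.2,
   x.2.2.1 * y.1 + x.2.2.2 * y.2.2.1, x.2.2.1 * y.2.1 + x.2.2.2 * y.2.2.2)

def qpow (x : Q4) : ℕ → Q4
  | 0 => (1, 0, 0, 1)
  | n + 1 => qmul (qpow x n) x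

def toM (q : Q4) : Matrix (Fin 2) (Fin 2) (ZMod 7) := !![q.1, q.2.1; q.2.2.1, q.2.2.2]

theorem toM_qmul (x y : Q4) : toM (qmul x y) = toM x * toM y := by
  ext i j
  fin_cases i <;> fin_cases j <;> simp [toM, qmul, Matrix.mul_apply, Fin.sum_univ_two]

theorem toM_one : toM (1, 0, 0, 1) = 1 := by
  ext i j
  fin_cases i <;> fin_cases j <;> simp [toM]

theorem toM_neg_one : toM (-1, 0, 0, -1) = -1 := by
  ext i j
  fin_cases i <;> fin_cases j <;> simp [toM]

theorem toM_qpow (x : Q4) (n : ℕ) : toM (qpow x n) = toM x ^ n := by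
  induction n with
  | zero => rw [pow_zero]; exact toM_one
  | succ n ih => rw [pow_succ, ← ih, ← toM_qmul]; rfl

theorem toM_injective : Function.Injective toM := by
  intro x y h
  have h00 := congrFun (congrFun h 0) 0
  have h01 := congrFun (congrFun h 0) 1
  have h10 := congrFun (congrFun h 1) 0
  have h11 := congrFun (congrFun h 1) 1
  simp only [toM, Matrix.of_apply, Matrix.cons_val', Matrix.cons_val_zero, Matrix.cons_val_one,
    Matrix.cons_val_fin_one] at h00 h01 h10 h11
  exact Prod.ext h00 (Prod.ext h01 (Prod.ext h10 h11))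

def detq (q : Q4) : ZMod 7 := q.1 * q.2.2.2 - q.2.1 * q.2.2.1

/-- `SL₂` as quadruples -/
def slEquiv : SL7 ≃ {q : Q4 // detq q = 1} where
  toFun A := ⟨(A.1 0 0, A.1 0 1, A.1 1 0, A.1 1 1), by
    have h := A.2
    rw [Matrix.det_fin_two] at h
    exact h⟩
  invFun q := ⟨toM q.1, by
    rw [toM, Matrix.det_fin_two_of]
    exact q.2⟩
  left_inv A := by
    apply Subtype.ext
    ext i j
    fin_cases i <;> fin_cases j <;> rfl
  right_inv q := by
    apply Subtype.ext
    rfl

/-- the number of matrices of determinant one with `n`-th power `1` or `-1` -/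
def pslCnt (n : ℕ) : ℕ :=
  ∑ q : Q4, if detq q = 1 ∧ (qpow q n = (1, 0, 0, 1) ∨ qpow q n = (-1, 0, 0, -1)) then 1 else 0

theorem sl_count (n : ℕ) : Nat.card {A : SL7 // (A ^ n).1 = 1 ∨ (A ^ n).1 = -1} = pslCnt n := by
  have e : {A : SL7 // (A ^ n).1 = 1 ∨ (A ^ n).1 = -1} ≃
      {q : Q4 // detq q = 1 ∧ (qpow q n = (1, 0, 0, 1) ∨ qpow q n = (-1, 0, 0, -1))} := by
    refine (Equiv.subtypeEquiv slEquiv (fun A => ?_)).trans
      (Equiv.subtypeSubtypeEquivSubtypeInter _ _)
    have hA : toM (slEquiv A).1 = A.1 := by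
      ext i j
      fin_cases i <;> fin_cases j <;> rfl
    rw [Matrix.SpecialLinearGroup.coe_pow, ← hA, ← toM_qpow, ← toM_neg_one, ← toM_one,
      toM_injective.eq_iff, toM_injective.eq_iff]
  rw [Nat.card_congr e, Nat.card_eq_fintype_card, Fintype.card_subtype, Finset.card_filter]
  rfl

theorem two_ne_zero_7 : (2 : ZMod 7) ≠ 0 := by decide

theorem psl_count (n : ℕ) : fcount PSL7 n = pslCnt n / 2 := by
  have : Fact (Nat.Prime 7) := ⟨by norm_num⟩
  have h1 := QuotientGroup.card_preimage_mk (Subgroup.center SL7) {x : PSL7 | x ^ n = 1}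
  have h2 : Nat.card (Subgroup.center SL7) = 2 :=
    Cfsg.Agent.Lib.Helper5.card_center_SL2_of_two_ne_zero two_ne_zero_7
  have h3 : Nat.card ((QuotientGroup.mk : SL7 → PSL7) ⁻¹' {x : PSL7 | x ^ n = 1}) = pslCnt n := by
    rw [← sl_count]
    apply Nat.card_congr
    apply Equiv.subtypeEquivRight
    intro A
    exact Cfsg.Agent.Lib.Helper41.psl2_pow_eq_one_iff A n
  rw [h3, h2] at h1
  unfold fcount
  have h4 : Nat.card {x : PSL7 // x ^ n = 1} = Nat.card ({x : PSL7 | x ^ n = 1} : Set PSL7) := rfl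
  omega

theorem card_PSL7 : Nat.card PSL7 = 168 := by
  have : Fact (Nat.Prime 7) := ⟨by norm_num⟩
  have h := Cfsg.Agent.Lib.Helper5.card_PSL_mul_card_center (Fin 2) (ZMod 7)
  rw [Cfsg.Agent.Lib.Helper5.card_center_SL2_of_two_ne_zero two_ne_zero_7,
    Cfsg.Agent.Lib.Helper5.card_SL2, ZMod.card] at h
  have h' : Nat.card PSL7 * 2 = 336 := h
  omega

instance finite_PSL7 : Finite PSL7 :=
  Nat.finite_of_card_ne_zero (by rw [card_PSL7]; norm_num)

set_option maxRecDepth 100000 in
theorem pslCnt_84 : pslCnt 84 / 2 = 168 := by decide +kernel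

set_option maxRecDepth 100000 in
theorem pslCnt_2 : pslCnt 2 / 2 = 22 := by decide +kernel

instance exp84_PSL7 : Exp84 PSL7 := by
  refine ⟨fun x => ?_⟩
  by_contra hx
  have h1 : fcount PSL7 84 = 168 := by rw [psl_count, pslCnt_84]
  have h2 := card_PSL7
  classical
  have := Fintype.ofFinite PSL7
  have h3 := Fintype.card_subtype_lt (p := fun y : PSL7 => y ^ 84 = 1) hx
  unfold fcount at h1
  rw [Nat.card_eq_fintype_card] at h1 h2
  omega

theorem not_solvable_PSL7 : ¬ Group.IsSolvable PSL7 := by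
  have : Fact (Nat.Prime 7) := ⟨by norm_num⟩
  have hs : IsSimpleGroup PSL7 :=
    Matrix.ProjectiveSpecialLinearGroup.rank_two_simple (by rw [Nat.card_zmod]; norm_num)
  intro hsol
  have hc := (IsSimpleGroup.comm_iff_isSolvable (G := PSL7)).mpr hsol
  let f : PSL7 →* PSL7 :=
    { toFun := fun x => x ^ 2
      map_one' := one_pow 2
      map_mul' := fun a b => Commute.mul_pow (show Commute a b from hc a b) 2 }
  have h1 : Nat.card f.ker = fcount PSL7 2 :=
    Nat.card_congr (Equiv.subtypeEquivRight (fun x => MonoidHom.mem_ker))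
  have h2 := Subgroup.card_subgroup_dvd_card f.ker
  rw [h1, psl_count, pslCnt_2, card_PSL7] at h2
  omega

end Cfsg.Agent.Lib.Helper5.OrdGrp
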