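import Mathlib
import Cfsg.Agent.Lib.Helper5.OrdGrp

set_option autoImplicit false

/-! A solvable group and a non-solvable group with the same number of solutions of `x ^ n = 1`
for every `n`, hence with the same order type. -/

namespace Cfsg.Agent.Lib.Helper5.OrdFin

open Cfsg.Agent.Lib.Helper5.OrdType Cfsg.Agent.Lib.Helper5.OrdBlk Cfsg.Agent.Lib.Helper5.OrdGrp

/-- the solvable group -/
abbrev GG : Type := (Fin 12 → AG) × (Fin 8 → C7) × (Fin 6 → D3) × (Fin 12 → S4) × (Fin 3 → B1) ×
  (Fin 6 → B2) × (Fin 8 → B4) × (Fin 6 → B8) × (Fin 12 → B9) × (Fin 12 → B10) × (Fin 18 → B13)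

/-- the non-solvable group -/
abbrev HH : Type := (Fin 12 → PSL7) × (Fin 15 → C2) × (Fin 15 → C4) × (Fin 6 → D4) ×
  (Fin 12 → A4) × (Fin 12 → Q3) × (Fin 16 → B3) × (Fin 2 → B5) × (Fin 24 → B6) × (Fin 9 → B7) ×
  (Fin 12 → B11) × (Fin 6 → B12)

/-- the count of solutions of `x ^ n = 1` in the solvable group -/
def ggTab (n : ℕ) : ℕ :=
  tabOf AG n ^ 12 * (tabOf C7 n ^ 8 * (tabOf D3 n ^ 6 * (tabOf S4 n ^ 12 *
  (blkTab C4 chC4 1 n ^ 3 *
  (blkTab (C2 × C3) (MonoidHom.coprod chC2 chC3) 1 n ^ 6 *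
  (blkTab C2 chC2 chC2 n ^ 8 *
  (blkTab (D3 × D4) (MonoidHom.coprod (dsgn 3) drot) 1 n ^ 6 *
  (blkTab (D3 × Q3) (MonoidHom.coprod (dsgn 3) qsgn) 1 n ^ 12 *
  (blkTab (D4 × D4) (MonoidHom.coprod (dsgn 4) drot) 1 n ^ 12 *
  blkTab (C3 × C4) (MonoidHom.coprod chC3 chC4) 1 n ^ 18)))))))))

/-- the count of solutions of `x ^ n = 1` in the non-solvable group -/
def hhTab (n : ℕ) : ℕ :=
  (pslCnt n / 2) ^ 12 * (tabOf C2 n ^ 15 * (tabOf C4 n ^ 15 * (tabOf D4 n ^ 6 *
  (tabOf A4 n ^ 12 * (tabOf Q3 n ^ 12 *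
  (blkTab C3 chC3 1 n ^ 16 *
  (blkTab (C2 × C3) (MonoidHom.coprod chC2 1) (MonoidHom.coprod chC2 chC3) n ^ 2 *
  (blkTab D4 (dsgn 4) 1 n ^ 24 *
  (blkTab C2 chC2 1 n ^ 9 *
  (blkTab (D3 × D3) (MonoidHom.coprod (dsgn 3) (dsgn 3)) 1 n ^ 12 *
  blkTab (C3 × C4) (MonoidHom.coprod 1 chC4) (MonoidHom.coprod chC3 chC4) n ^ 6))))))))))

theorem gg_tab (n : ℕ) : fcount GG n = ggTab n := by
  simp only [fcount_prod, fcount_pi, Fintype.card_fin, blk_count]
  rw [fcount_eq_tabOf AG, fcount_eq_tabOf C7, fcount_eq_tabOf D3, fcount_eq_tabOf S4]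
  rfl

theorem hh_tab (n : ℕ) : fcount HH n = hhTab n := by
  simp only [fcount_prod, fcount_pi, Fintype.card_fin, blk_count, psl_count]
  rw [fcount_eq_tabOf C2, fcount_eq_tabOf C4, fcount_eq_tabOf D4, fcount_eq_tabOf A4,
    fcount_eq_tabOf Q3]
  rfl

set_option maxRecDepth 100000 in
theorem tab_1 : ggTab 1 = hhTab 1 := by decide +kernel
set_option maxRecDepth 100000 in
theorem tab_2 : ggTab 2 = hhTab 2 := by decide +kernel
set_option maxRecDepth 100000 in
theorem tab_3 : ggTab 3 = hhTab 3 := by decide +kernel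
set_option maxRecDepth 100000 in
theorem tab_4 : ggTab 4 = hhTab 4 := by decide +kernel
set_option maxRecDepth 100000 in
theorem tab_6 : ggTab 6 = hhTab 6 := by decide +kernel
set_option maxRecDepth 100000 in
theorem tab_7 : ggTab 7 = hhTab 7 := by decide +kernel
set_option maxRecDepth 100000 in
theorem tab_12 : ggTab 12 = hhTab 12 := by decide +kernel
set_option maxRecDepth 100000 in
theorem tab_14 : ggTab 14 = hhTab 14 := by decide +kernel
set_option maxRecDepth 100000 in
theorem tab_21 : ggTab 21 = hhTab 21 := by decide +kernel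
set_option maxRecDepth 100000 in
theorem tab_28 : ggTab 28 = hhTab 28 := by decide +kernel
set_option maxRecDepth 100000 in
theorem tab_42 : ggTab 42 = hhTab 42 := by decide +kernel
set_option maxRecDepth 100000 in
theorem tab_84 : ggTab 84 = hhTab 84 := by decide +kernel

theorem divisors_84 : Nat.divisors 84 = {1, 2, 3, 4, 6, 7, 12, 14, 21, 28, 42, 84} := by
  decide +kernel

theorem fcount_eq (n : ℕ) : fcount GG n = fcount HH n := by
  rw [fcount_gcd 84 (Exp84.pow84 (A := GG)) n, fcount_gcd 84 (Exp84.pow84 (A := HH)) n]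
  have hd : Nat.gcd n 84 ∈ Nat.divisors 84 :=
    Nat.mem_divisors.mpr ⟨Nat.gcd_dvd_right n 84, by norm_num⟩
  rw [divisors_84] at hd
  generalize Nat.gcd n 84 = d at hd ⊢
  simp only [Finset.mem_insert, Finset.mem_singleton] at hd
  rw [gg_tab, hh_tab]
  rcases hd with rfl | rfl | rfl | rfl | rfl | rfl | rfl | rfl | rfl | rfl | rfl | rfl
  · exact tab_1
  · exact tab_2
  · exact tab_3
  · exact tab_4
  · exact tab_6
  · exact tab_7
  · exact tab_12
  · exact tab_14
  · exact tab_21
  · exact tab_28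
  · exact tab_42
  · exact tab_84

theorem gg_solvable : Group.IsSolvable GG := inferInstance

theorem hh_not_solvable : ¬ Group.IsSolvable HH := by
  intro h
  apply not_solvable_PSL7
  let f : HH →* PSL7 := (Pi.evalMonoidHom (fun _ : Fin 12 => PSL7) 0).comp (MonoidHom.fst _ _)
  have hf : Function.Surjective f := by
    intro y
    exact ⟨(fun _ => y, 1), rfl⟩
  exact Group.isSolvable_of_surjective hf

theorem gg_finite : Finite GG := by
  refine @Finite.instProd _ _ inferInstance ?_
  refine @Finite.instProd _ _ inferInstance ?_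
  refine @Finite.instProd _ _ inferInstance ?_
  refine @Finite.instProd _ _ inferInstance ?_
  refine @Finite.instProd _ _ inferInstance ?_
  refine @Finite.instProd _ _ inferInstance ?_
  refine @Finite.instProd _ _ inferInstance ?_
  refine @Finite.instProd _ _ inferInstance ?_
  refine @Finite.instProd _ _ inferInstance ?_
  exact @Finite.instProd _ _ inferInstance inferInstance

theorem hh_finite : Finite HH := by
  refine @Finite.instProd _ _ inferInstance ?_
  refine @Finite.instProd _ _ inferInstance ?_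
  refine @Finite.instProd _ _ inferInstance ?_
  refine @Finite.instProd _ _ inferInstance ?_
  refine @Finite.instProd _ _ inferInstance ?_
  refine @Finite.instProd _ _ inferInstance ?_
  refine @Finite.instProd _ _ inferInstance ?_
  refine @Finite.instProd _ _ inferInstance ?_
  refine @Finite.instProd _ _ inferInstance ?_
  refine @Finite.instProd _ _ inferInstance ?_
  exact @Finite.instProd _ _ inferInstance inferInstance

theorem same_order_type (n : ℕ) :
    Nat.card {g : GG // orderOf g = n} = Nat.card {h : HH // orderOf h = n} :=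
  haveI := gg_finite
  haveI := hh_finite
  card_orderOf_eq_of_fcount fcount_eq n

end Cfsg.Agent.Lib.Helper5.OrdFin
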